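import Cfsg.Agent.H235.ExtOut
import Cfsg.Agent.Blocks.Basic

/-!
# S4832: characters which extend to their stabilizer in the automorphism group (helper980)

* `ExtStab θ` : `θ` extends to its stabilizer in `Aut S` (as in S4832);
* `ExtStab.of_extAut`, `ExtStab.of_gen` (`T / Inn S` cyclic), `ExtStab.of_equiv`;
* `RowE p S` : some `θ` with `p ∣ θ(1)` and `ExtStab θ`; `RowE.of_equiv`.
-/

set_option autoImplicit false
set_option linter.unusedSectionVars false

namespace Cfsg.Agent.H980.Ext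

open Cfsg Cfsg.Agent.Characters.Core

/-- `θ` extends to its stabilizer in `Aut S` -/
def ExtStab {S : Type*} [Group S] (θ : IrrCharacter S) : Prop :=
  ∀ T : Subgroup (MulAut S), (∀ α : MulAut S, α ∈ T ↔ ∀ s : S, (θ : S → ℂ) (α s) = (θ : S → ℂ) s) →
    ∃ ψ : IrrCharacter T, ∀ (s : S) (hs : MulAut.conj s ∈ T), (ψ : T → ℂ) ⟨MulAut.conj s, hs⟩ = (θ : S → ℂ) s

/-- some `θ` of degree divisible by `p` extends to its stabilizer -/
def RowE (p : ℕ) (S : Type*) [Group S] : Prop :=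
  ∃ θ : IrrCharacter S, p ∣ charDegree (θ : S → ℂ) ∧ ExtStab θ

section

variable {S : Type*} [Group S] [Finite S]

theorem conj_mem_of {θ : IrrCharacter S} {T : Subgroup (MulAut S)}
    (hT : ∀ α : MulAut S, α ∈ T ↔ ∀ s : S, (θ : S → ℂ) (α s) = (θ : S → ℂ) s) (s : S) : MulAut.conj s ∈ T := by
  rw [hT]
  intro r
  exact isIrr_isClassFunction θ.2 r s

theorem ExtStab.of_extAut {θ : IrrCharacter S}
    (h : ∃ ψ : IrrCharacter (MulAut S), ∀ s : S, (ψ : MulAut S → ℂ) (MulAut.conj s) = (θ : S → ℂ) s) : ExtStab θ := by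
  obtain ⟨ψ, hψ⟩ := h
  intro T hT
  have htop : T = ⊤ := by
    rw [Subgroup.eq_top_iff']
    intro α
    rw [hT]
    intro s
    have h1 : MulAut.conj (α s) = α * MulAut.conj s * α⁻¹ := by
      ext x
      simp [MulAut.conj_apply]
    rw [← hψ, ← hψ, h1]
    exact isIrr_isClassFunction ψ.2 _ _
  have hfin : Finite (MulAut S) := inferInstance
  refine ⟨⟨(ψ : MulAut S → ℂ) ∘ T.subtype, isIrr_comp T.subtype (fun α => ⟨⟨α, ?_⟩, rfl⟩) ψ.2⟩, fun s hs => hψ s⟩
  rw [htop]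
  exact Subgroup.mem_top _

/-- **`T / Inn S` cyclic** -/
theorem ext_of_gen [IsSimpleGroup S] (hna : ¬ IsMulCommutative S) (θ : IrrCharacter S) (T : Subgroup (MulAut S))
    (hT : ∀ α : MulAut S, α ∈ T ↔ ∀ s : S, (θ : S → ℂ) (α s) = (θ : S → ℂ) s)
    (hgen : ∃ a ∈ T, ∀ b ∈ T, ∃ (k : ℤ) (s : S), b = MulAut.conj s * a ^ k) :
    ∃ ψ : IrrCharacter T, ∀ (s : S) (hs : MulAut.conj s ∈ T), (ψ : T → ℂ) ⟨MulAut.conj s, hs⟩ = (θ : S → ℂ) s := by
  obtain ⟨a, ha, hgen⟩ := hgen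
  have hfin : Finite (MulAut S) := inferInstance
  have hmem := conj_mem_of hT
  let f : S →* T := (MulAut.conj : S →* MulAut S).codRestrict T hmem
  have hf : Function.Injective f := fun x y h =>
    Cfsg.Agent.H235.ExtOut.conj_injective hna (congrArg Subtype.val h)
  have hnorm : f.range.Normal := ⟨by
    rintro _ ⟨s, rfl⟩ g
    refine ⟨(g : MulAut S) s, ?_⟩
    apply Subtype.ext
    show MulAut.conj ((g : MulAut S) s) = (g : MulAut S) * MulAut.conj s * (g : MulAut S)⁻¹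
    ext x
    simp [MulAut.conj_apply]⟩
  have hcyc : IsCyclic (T ⧸ f.range) := by
    refine ⟨⟨QuotientGroup.mk' f.range ⟨a, ha⟩, fun q => ?_⟩⟩
    obtain ⟨b, rfl⟩ := QuotientGroup.mk'_surjective f.range q
    obtain ⟨k, s, hks⟩ := hgen b b.2
    refine Subgroup.mem_zpowers_iff.2 ⟨k, ?_⟩
    have h1 : b = f s * ⟨a, ha⟩ ^ k := Subtype.ext hks
    have h2 : QuotientGroup.mk' f.range (f s) = 1 := (QuotientGroup.eq_one_iff _).2 ⟨s, rfl⟩
    rw [h1, map_mul, h2, one_mul, map_zpow]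
  let e : S ≃* f.range := MonoidHom.ofInjective hf
  have he : ∀ s : S, ((e s : f.range) : T) = f s := fun s => rfl
  obtain ⟨χ, hχ, hres⟩ := S0886.result (G := T) f.range hcyc ((θ : S → ℂ) ∘ e.symm)
    (isIrr_comp (e.symm : f.range →* S) e.symm.surjective θ.2) (by
      intro g n
      obtain ⟨s, rfl⟩ := e.surjective n
      have h1 : (⟨g * (e s : f.range) * g⁻¹, hnorm.conj_mem _ (e s).2 g⟩ : f.range) = e ((g : MulAut S) s) := by
        apply Subtype.ext
        apply Subtype.ext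
        show (g : MulAut S) * MulAut.conj s * (g : MulAut S)⁻¹ = MulAut.conj ((g : MulAut S) s)
        ext x
        simp [MulAut.conj_apply]
      rw [h1]
      show (θ : S → ℂ) (e.symm (e ((g : MulAut S) s))) = (θ : S → ℂ) (e.symm (e s))
      rw [e.symm_apply_apply, e.symm_apply_apply]
      exact (hT g).1 g.2 s)
  refine ⟨⟨χ, hχ⟩, fun s hs => ?_⟩
  have h1 := hres (e s)
  rw [he] at h1
  show χ (f s) = _
  rw [h1]
  show (θ : S → ℂ) (e.symm (e s)) = _
  rw [e.symm_apply_apply]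

theorem ExtStab.of_equiv {S' : Type*} [Group S'] (e : S ≃* S') {θ' : IrrCharacter S'} {θ : IrrCharacter S}
    (hθ : ∀ s, (θ : S → ℂ) s = (θ' : S' → ℂ) (e s)) (h : ExtStab θ') : ExtStab θ := by
  have hfin' : Finite S' := Finite.of_equiv S e.toEquiv
  intro T hT
  let E : MulAut S ≃* MulAut S' := MulAut.congr e
  have hE : ∀ (α : MulAut S) (x : S'), E α x = e (α (e.symm x)) := fun α x => rfl
  obtain ⟨ψ, hψ⟩ := h (T.map E.toMonoidHom) (by
    intro α
    constructor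
    · rintro ⟨β, hβ, rfl⟩ s
      have h1 := (hT β).1 hβ (e.symm s)
      rw [hθ, hθ, e.apply_symm_apply] at h1
      exact h1
    · intro hα
      refine ⟨E.symm α, (hT _).2 fun s => ?_, E.apply_symm_apply α⟩
      have h1 := hα (e s)
      have h2 : e ((E.symm α) s) = α (e s) := by
        have h3 : E (E.symm α) (e s) = α (e s) := by rw [E.apply_symm_apply]
        rw [hE, e.symm_apply_apply] at h3
        exact h3
      rw [hθ, hθ, h2, h1])
  let ε : T ≃* T.map E.toMonoidHom := T.equivMapOfInjective E.toMonoidHom E.injective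
  have hfinA : Finite (MulAut S) := inferInstance
  have hfinA' : Finite (MulAut S') := inferInstance
  refine ⟨⟨(ψ : T.map E.toMonoidHom → ℂ) ∘ ε, isIrr_comp (ε : T →* T.map E.toMonoidHom) ε.surjective ψ.2⟩,
    fun s hs => ?_⟩
  have h1 : E (MulAut.conj s) = MulAut.conj (e s) := by
    ext x
    rw [hE, MulAut.conj_apply, MulAut.conj_apply, map_mul, map_mul, e.apply_symm_apply, map_inv]
  have hs' : MulAut.conj (e s) ∈ T.map E.toMonoidHom := ⟨_, hs, h1⟩
  have h2 : ε ⟨MulAut.conj s, hs⟩ = ⟨MulAut.conj (e s), hs'⟩ := Subtype.ext h1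
  show (ψ : T.map E.toMonoidHom → ℂ) (ε ⟨MulAut.conj s, hs⟩) = _
  rw [h2, hψ, ← hθ]

theorem RowE.of_equiv {S' : Type*} [Group S'] (e : S ≃* S') {p : ℕ} (h : RowE p S') : RowE p S := by
  obtain ⟨θ', hp, h'⟩ := h
  let θ : IrrCharacter S := ⟨(θ' : S' → ℂ) ∘ e, isIrr_comp (e : S →* S') e.surjective θ'.2⟩
  refine ⟨θ, ?_, ExtStab.of_equiv e (fun s => rfl) h'⟩
  have h1 : charDegree (θ : S → ℂ) = charDegree (θ' : S' → ℂ) := by
    apply Cfsg.Agent.Blocks.Basic.charDegree_of_eq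
    show (θ' : S' → ℂ) (e 1) = _
    rw [map_one]
    have hfin' : Finite S' := Finite.of_equiv S e.toEquiv
    exact Cfsg.Agent.Blocks.Basic.irr_one_eq_charDegree θ'.2
  rw [h1]
  exact hp

end

end Cfsg.Agent.H980.Ext
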