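import Cfsg.Agent.H576.Ext.Defs
import Cfsg.Agent.H980.ExtPsl2

/-!
# S4832: `RowE` gives `HasExt` (helper980)

* `RowE.hasExt` : `RowE p S → HasExt p S`;
* `hasExt_psl2` : the row `PSL₂(q)`, `p` different from the characteristic, in the form `HasExt`.
-/

set_option autoImplicit false

namespace Cfsg.Agent.H980.Ext

open Cfsg Cfsg.Agent.H576.Ext

universe u

/-- `ExtStab` in the form `ExtTo` -/
theorem ExtStab.extTo {S : Type u} [Group S] {θ : IrrCharacter S} (h : ExtStab θ) :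
    ExtTo (θ : S → ℂ) (stab (θ : S → ℂ)) := by
  obtain ⟨ψ, hψ⟩ := h (stab (θ : S → ℂ)) fun _ => Iff.rfl
  exact ⟨(ψ : stab (θ : S → ℂ) → ℂ), ψ.2, hψ⟩

/-- **`RowE` gives `HasExt`** -/
theorem RowE.hasExt {p : ℕ} {S : Type u} [Group S] (h : RowE p S) : HasExt p S := by
  obtain ⟨θ, hd, he⟩ := h
  exact ⟨(θ : S → ℂ), θ.2, hd, he.extTo⟩

/-- **the row `PSL₂(q)`, `p` different from the characteristic** -/
theorem hasExt_psl2 {F : Type u} [Field F] [Fintype F] (h4 : 4 ≤ Fintype.card F) {p : ℕ} [Fact p.Prime]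
    (hd : p ∣ Nat.card (Matrix.ProjectiveSpecialLinearGroup (Fin 2) F)) (hpF : ¬ p ∣ Fintype.card F) :
    HasExt p (Matrix.ProjectiveSpecialLinearGroup (Fin 2) F) :=
  (PslTwo.row_psl2 h4 hd hpF).hasExt

end Cfsg.Agent.H980.Ext
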